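import Cfsg.Agent.H162.CC.Iface

/-!
# Commutator certificates for S3828 (helper659)

* `KC p x` : all the commutators of `x` with its conjugates have `p`-power order; closed under conjugation and inversion;
* `not_kc` : the certificate;
* `crow_of_kc` : if no `p`-element `x ≠ 1` has `KC p x` then `CRow p K`; `crow_of_not_dvd` : `p ∤ |K|`.
-/

set_option autoImplicit false

namespace Cfsg.Agent.H659.CommCert

open Subgroup Cfsg Cfsg.Agent.H162.CCR

variable {K : Type*} [Group K] {p : ℕ}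

/-- all the commutators of `x` with its conjugates have `p`-power order -/
def KC (p : ℕ) {K : Type*} [Group K] (x : K) : Prop :=
  ∀ g : K, ∃ k, orderOf (x⁻¹ * (g * x * g⁻¹)⁻¹ * x * (g * x * g⁻¹)) = p ^ k

theorem orderOf_conj' (x c : K) : orderOf (c * x * c⁻¹) = orderOf x := by
  rw [← MulAut.conj_apply, MulEquiv.orderOf_eq]

theorem KC.conj (c x : K) (h : KC p x) : KC p (c * x * c⁻¹) := by
  intro g
  obtain ⟨k, hk⟩ := h (c⁻¹ * g * c)
  refine ⟨k, ?_⟩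
  rw [← hk, ← orderOf_conj' (x⁻¹ * (c⁻¹ * g * c * x * (c⁻¹ * g * c)⁻¹)⁻¹ * x * (c⁻¹ * g * c * x * (c⁻¹ * g * c)⁻¹)) c]
  congr 1
  group

theorem KC.inv (x : K) (h : KC p x) : KC p x⁻¹ := by
  intro g
  obtain ⟨k, hk⟩ := h g
  refine ⟨k, ?_⟩
  rw [← hk, ← orderOf_conj' (x⁻¹ * (g * x * g⁻¹)⁻¹ * x * (g * x * g⁻¹)) (g * x * g⁻¹ * x)]
  congr 1
  group

/-- **certificate** -/
theorem not_kc {x g : K} {n : ℕ} (h : (x⁻¹ * (g * x * g⁻¹)⁻¹ * x * (g * x * g⁻¹)) ^ n = 1)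
    (h1 : x⁻¹ * (g * x * g⁻¹)⁻¹ * x * (g * x * g⁻¹) ≠ 1) (hn : Nat.Coprime p n) : ¬ KC p x := by
  intro hx
  obtain ⟨k, hk⟩ := hx g
  apply h1
  rw [← orderOf_eq_one_iff]
  have h2 := orderOf_dvd_of_pow_eq_one h
  rw [hk] at h2
  rw [hk]
  exact Nat.Coprime.eq_one_of_dvd (Nat.Coprime.pow_left k hn) h2

theorem kc_of_mem {C : Set K} (h : CC p C) {c : K} (hc : c ∈ C) : KC p c := fun g =>
  h.pel _ (h.comm c hc _ (h.conj g c hc))

/-- **the rows** -/
theorem crow_of_kc (h : ∀ (x : K) (n : ℕ), orderOf x = p ^ n → x ≠ 1 → ¬ KC p x) : CRow p K := by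
  intro C hC c hc
  by_contra hc1
  obtain ⟨k, hk⟩ := hC.pel c hc
  exact h c k hk hc1 (kc_of_mem hC.toCC hc)

theorem crow_of_not_dvd [hp : Fact p.Prime] (h : ¬ p ∣ Nat.card K) : CRow p K := by
  intro C hC c hc
  obtain ⟨k, hk⟩ := hC.pel c hc
  rcases Nat.eq_zero_or_pos k with h0 | h0
  · rw [h0, pow_zero, orderOf_eq_one_iff] at hk
    exact hk
  · exfalso
    apply h
    have h1 : p ∣ orderOf c := by rw [hk]; exact dvd_pow_self p h0.ne'
    exact h1.trans (orderOf_dvd_natCard c)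

end Cfsg.Agent.H659.CommCert
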