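import Cfsg.Agent.H659.FRAsm2
import Cfsg.Agent.H138.FR.Uni

/-!
# TEAM SR part 2 (S4970): the geometric induction, unconditional

`hyp_all : ∀ n, Hyp n`, and its consequences: `fsGood_true_O'`, `fsGood_false_O'` (orthogonal groups in odd
characteristic), `fsz_sp'` (symplectic groups over fields of order `1 mod 4`).
-/

set_option autoImplicit false

universe u

namespace Cfsg.Agent.H659.FRAsm

open Cfsg Cfsg.Agent.H955.FS Cfsg.Agent.H721.SR Cfsg.Agent.H721.FR Module QuadraticMap
open Cfsg.Agent.LieClassical.OrthCore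

/-- **no indicator is `-χ(z)/χ(1)` for the isometry groups** -/
theorem hyp_all : ∀ n : ℕ, Hyp.{u} n :=
  hyp_all2
    { uni := fun hF _ hI _ _ hc hc1 ho hu _ hP => Cfsg.Agent.H138.FR.cov_uni hF hI hc hc1 ho hu hP.le hP.two hP.act
      mix := fun hF _ hI _ _ hc _ ho hs hu hex hP => Cfsg.Agent.H138.FR.cov_mix_final hF hI hc ho hs hu hex hP }

section Consequences

variable {F V : Type u} [Field F] [Finite F] [AddCommGroup V] [Module F V] [FiniteDimensional F V]

/-- the isometry groups of the nondegenerate symmetric forms, `q` odd: no indicator is `-1` -/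
theorem fsGood_true_isom' {B : V →ₗ[F] V →ₗ[F] F} (hF : Fm B 1) : FSGood True (Isom B) :=
  fsGood_true_isom hyp_all hF

/-- no indicator of `O Q` is `-1` (`q` odd) -/
theorem fsGood_true_O' {Q : QuadraticForm F V} (h2 : (2 : F) ≠ 0) (hQ : Nondeg Q) : FSGood True (O Q) :=
  fsGood_true_O hyp_all h2 hQ

/-- **all indicators of `O Q` are one** (`q` odd) -/
theorem fsGood_false_O' {Q : QuadraticForm F V} (h2 : (2 : F) ≠ 0) (hQ : Nondeg Q) : FSGood False (O Q) :=
  fsGood_false_O hyp_all h2 hQ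

/-- **the symplectic groups over fields of order `1 mod 4`**: `ν(χ) ≠ -χ(-1)/χ(1)` -/
theorem fsz_sp' {B : V →ₗ[F] V →ₗ[F] F} (h4 : Nat.card F % 4 = 1) (h2 : (2 : F) ≠ 0)
    (hs : ∀ x y, B x y = - B y x) (hnd : ∀ x, (∀ y, B x y = 0) → x = 0) :
    FSZs (Isom B) (LinearEquiv.neg F : V ≃ₗ[F] V) :=
  fsz_sp hyp_all h4 h2 hs hnd

end Consequences

end Cfsg.Agent.H659.FRAsm
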