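import Cfsg.Agent.H659.FRAsm
import Cfsg.Agent.H138.FR.Cover
import Cfsg.Agent.H76.FR.Red
import Cfsg.Agent.H467.FRSmall
import Cfsg.Agent.H957.FROne
import Cfsg.Agent.H699.FR.Sem
import Cfsg.Agent.H137.FR.Scalar
import Cfsg.Agent.H194.FR.Nfour

/-!
# TEAM SR part 2 (S4970), task FR-ASM: the strong induction, over the elements `c` of odd order

`Inputs2` : what is left (unipotent and mixed elements); `hyp_all2 : Inputs2 → ∀ n, Hyp n`.
The consequences are those of `Cfsg.Agent.H659.FRAsm` (`fsGood_true_O`, `isConj_inv_O`, `fsGood_false_O`, `fsz_sp`).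
-/

set_option autoImplicit false

universe u

namespace Cfsg.Agent.H659.FRAsm

open Cfsg Cfsg.Agent.H955.FS Cfsg.Agent.H721.SR Cfsg.Agent.H721.FR Module QuadraticMap

/-- the cases of unipotent and of mixed elements -/
structure Inputs2 : Prop where
  /-- FR-UNI: `c ≠ 1` of `p`-power order -/
  uni : ∀ {F V : Type u} [Field F] [Finite F] [AddCommGroup V] [Module F V] [FiniteDimensional F V]
    {B : V →ₗ[F] V →ₗ[F] F} {ε : F}, Fm B ε → 3 ≤ finrank F V → (∀ m < finrank F V, Hyp.{u} m) →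
    ∀ {c : V ≃ₗ[F] V} {P : Subgroup (V ≃ₗ[F] V)}, c ∈ Isom B → c ≠ 1 → Odd (orderOf c) →
      (∃ a : ℕ, c ^ (ringChar F) ^ a = 1) → (∃ g ∈ P, g * c * g⁻¹ = c⁻¹) → Mx B c P → Cov B ε c P
  /-- FR-MIX: `c` of odd order divisible by `p`, not of `p`-power order -/
  mix : ∀ {F V : Type u} [Field F] [Finite F] [AddCommGroup V] [Module F V] [FiniteDimensional F V]
    {B : V →ₗ[F] V →ₗ[F] F} {ε : F}, Fm B ε → 3 ≤ finrank F V → (∀ m < finrank F V, Hyp.{u} m) →
    ∀ {c : V ≃ₗ[F] V} {P : Subgroup (V ≃ₗ[F] V)}, c ∈ Isom B → c ≠ 1 → Odd (orderOf c) →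
      (orderOf c : F) = 0 → (¬ ∃ a : ℕ, c ^ (ringChar F) ^ a = 1) → (∃ g ∈ P, g * c * g⁻¹ = c⁻¹) →
      Mx B c P → Cov B ε c P

theorem eq_one_or_of_odd {Γ : Type u} [Group Γ] {c : Γ} (h : Odd (orderOf c)) : c = 1 ∨ c * c ≠ 1 := by
  by_cases h1 : c * c = 1
  · left
    have h4 : orderOf c ∣ 2 := orderOf_dvd_of_pow_eq_one (by rw [pow_two, h1])
    rcases (Nat.dvd_prime Nat.prime_two).1 h4 with h5 | h5
    · exact orderOf_eq_one_iff.1 h5
    · rw [h5] at h
      exact absurd h (by decide)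
  · exact Or.inr h1

/-- dimension two -/
theorem hyp_two : Hyp.{u} 2 := by
  intro F V _ _ _ _ _ B ε hF hd
  rcases hF.eps with h1 | ⟨h1, -⟩
  · subst h1
    exact Cfsg.Agent.H467.FRSmall.fszs_two_one hF hd
  · subst h1
    exact Cfsg.Agent.H138.FR.isom_of_cov_odd fun c P hc ho hP =>
      Cfsg.Agent.H467.FRSmall.cov_two hF hd hc (eq_one_or_of_odd ho) hP.le hP.two hP.act

/-- small dimensions -/
theorem hyp_small : ∀ n ≤ 2, Hyp.{u} n := by
  intro n hn
  interval_cases n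
  · exact Cfsg.Agent.H467.FRSmall.hyp_zero
  · exact Cfsg.Agent.H467.FRSmall.hyp_one
  · exact hyp_two

/-- **the geometric induction** -/
theorem hyp_all2 (I : Inputs2.{u}) : ∀ n : ℕ, Hyp.{u} n := by
  intro n
  induction n using Nat.strong_induction_on with
  | _ n ih =>
    by_cases hn : n ≤ 2
    · exact hyp_small n hn
    intro F V _ _ _ _ _ B ε hF hV
    have hI : ∀ m < finrank F V, Hyp.{u} m := by rw [hV]; exact ih
    refine Cfsg.Agent.H138.FR.isom_of_cov_odd' fun c P hc ho hinv hP => ?_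
    by_cases hc1 : c = 1
    · subst hc1
      apply Cfsg.Agent.H76.FR.cov_of_red hF hI hc hP.le
      rw [Subgroup.closure_singleton_one, bot_sup_eq]
      exact Cfsg.Agent.H957.FR.red_one hF (by omega) hP
    by_cases hu : ∃ a : ℕ, c ^ (ringChar F) ^ a = 1
    · exact I.uni hF (by omega) hI hc hc1 ho hu hinv hP
    by_cases hs : (orderOf c : F) = 0
    · exact I.mix hF (by omega) hI hc hc1 ho hs hu hinv hP
    have ho2 : ¬ 2 ∣ orderOf c := fun h => (Nat.not_even_iff_odd.2 ho) (even_iff_two_dvd.2 h)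
    rcases Cfsg.Agent.H699.FR.cov_sem_mx hF hI hc hc1 ho2 hs hP with h | h | ⟨τ, ht, t1, t2⟩
    · exact Cfsg.Agent.H76.FR.cov_of_red hF hI hc hP.le h
    · exact h
    · rcases Cfsg.Agent.H137.FR.sem2 hF hc hP t1 t2 ht (by omega) with h | ⟨h4, h5⟩
      · exact Cfsg.Agent.H76.FR.cov_of_red hF hI hc hP.le h
      · exact Cfsg.Agent.H194.FR.cov_n4' hF hc hP t1 t2 ht h4 h5

end Cfsg.Agent.H659.FRAsm
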