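import Cfsg.Agent.H859.Heis
import Cfsg.Agent.H478.RadHeis

/-!
# Representatives of the nontrivial `p`-elements, for an arbitrary predicate (helper659, after helper235's `Reps`)

`Q` a predicate closed under conjugation and inversion:

* `heis_reps` : Sylow `p`-subgroup `⟨a, b⟩` extraspecial of order `p ^ 3`, exponent `p`, `p` odd;
* `abel_reps` : Sylow `p`-subgroup `⟨a, b⟩` elementary abelian of order `p ^ 2`, `p` odd;
* `cyc_reps` : Sylow `p`-subgroup `⟨a⟩` of order `p`, `p` odd.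
-/

set_option autoImplicit false

namespace Cfsg.Agent.H659.GenReps

open Subgroup Cfsg Cfsg.Agent.H859

variable {K : Type*} [Group K] {p : ℕ}

/-- `p`-elements are conjugate into a subgroup of index prime to `p` -/
theorem exists_conj_mem [Finite K] [Fact p.Prime] {P : Subgroup K} (hP : IsPGroup p P)
    (hi : ¬ p ∣ P.index) {g : K} {k : ℕ} (hg : orderOf g = p ^ k) : ∃ x : K, x * g * x⁻¹ ∈ P := by
  have h1 : IsPGroup p (zpowers g) := IsPGroup.of_card (n := k) (by rw [Nat.card_zpowers, hg])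
  obtain ⟨Q, hQ⟩ := h1.exists_le_sylow
  obtain ⟨x, hx⟩ := MulAction.exists_smul_eq K Q (hP.toSylow hi)
  refine ⟨x, ?_⟩
  have h2 : (Q : Subgroup K).map (MulAut.conj x).toMonoidHom = P := by
    have := congrArg (fun S : Sylow p K => (S : Subgroup K)) hx
    exact this
  rw [← h2]
  exact ⟨g, hQ (mem_zpowers g), rfl⟩

theorem exists_mul [hp : Fact p.Prime] {i : ℕ} (hi : ¬ p ∣ i) (k : ℕ) : ∃ m : ℕ, m * i ≡ k [MOD p] := by
  have h0 : (i : ZMod p) ≠ 0 := by rwa [Ne, ZMod.natCast_eq_zero_iff]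
  refine ⟨((k : ZMod p) * (i : ZMod p)⁻¹).val, ?_⟩
  rw [← ZMod.natCast_eq_natCast_iff]
  push_cast
  rw [ZMod.natCast_zmod_val, mul_assoc, inv_mul_cancel₀ h0, mul_one]

variable {Q : K → Prop} (hQc : ∀ c x, Q x → Q (c * x * c⁻¹)) (hQi : ∀ x, Q x → Q x⁻¹)

section
include hQc

theorem conj_iff {x : K} (c : K) : Q (c * x * c⁻¹) ↔ Q x := by
  refine ⟨fun h => ?_, hQc c x⟩
  have h1 := hQc c⁻¹ _ h
  have h2 : c⁻¹ * (c * x * c⁻¹) * c⁻¹⁻¹ = x := by group
  rwa [h2] at h1

end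

section Heis

variable [hp : Fact p.Prime] {a b w : K} (h : Heis.Rel p a b w)
include h

omit hp in
theorem conj_b (i j m : ℕ) : b ^ m * (a ^ i * b ^ j) * (b ^ m)⁻¹ = a ^ i * b ^ j * w ^ (m * i) := by
  have c1 : Commute (w ^ (m * i)) (b ^ j) := (show Commute w b from h.bw.symm).pow_pow _ _
  have c2 : Commute (b ^ m) (b ^ j) := Commute.pow_pow (Commute.refl b) m j
  have c3 : Commute (b ^ m) (w ^ (m * i)) := (show Commute b w from h.bw).pow_pow _ _
  rw [mul_inv_eq_iff_eq_mul]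
  calc b ^ m * (a ^ i * b ^ j) = (b ^ m * a ^ i) * b ^ j := by group
    _ = a ^ i * b ^ m * (w ^ (m * i) * b ^ j) := by rw [h.ba2]; group
    _ = a ^ i * (b ^ m * b ^ j) * w ^ (m * i) := by rw [c1.eq]; group
    _ = a ^ i * b ^ j * (b ^ m * w ^ (m * i)) := by rw [c2.eq]; group
    _ = _ := by rw [c3.eq]; group

omit hp in
theorem conj_a (j m : ℕ) : (a ^ m)⁻¹ * b ^ j * a ^ m = b ^ j * w ^ (j * m) := by
  have := h.ba2 j m
  rw [mul_assoc, this]
  group

include hQc in
theorem form {i j k : ℕ} (hij : ¬ (p ∣ i ∧ p ∣ j)) : Q (a ^ i * b ^ j * w ^ k) ↔ Q (a ^ i * b ^ j) := by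
  by_cases hi : p ∣ i
  · have hj : ¬ p ∣ j := fun hj => hij ⟨hi, hj⟩
    have ha : a ^ i = 1 := Heis.pow_eq_one_of h.ap hi
    rw [ha, one_mul]
    obtain ⟨m, hm⟩ := exists_mul hj k
    have h1 := conj_a h j m
    rw [pow_eq_pow_of_modEq (show j * m ≡ k [MOD p] by rw [mul_comm]; exact hm) h.wp] at h1
    rw [← h1]
    have h2 := conj_iff hQc (x := b ^ j) (a ^ m)⁻¹
    rwa [inv_inv] at h2
  · obtain ⟨m, hm⟩ := exists_mul hi k
    have h1 := conj_b h i j m
    rw [pow_eq_pow_of_modEq hm h.wp] at h1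
    rw [← h1]
    exact conj_iff hQc _

include hQc hQi in
theorem inv_form (i j : ℕ) (hi : i ≤ p) (hj : j ≤ p) (hij : ¬ (p ∣ i ∧ p ∣ j)) (h0 : Q (a ^ i * b ^ j)) :
    Q (a ^ (p - i) * b ^ (p - j)) := by
  have h1 : (a ^ i * b ^ j)⁻¹ = a ^ (p - i) * b ^ (p - j) * w ^ ((p - j) * (p - i)) := by
    have ea : (a ^ i)⁻¹ = a ^ (p - i) := by
      rw [inv_eq_iff_mul_eq_one, ← pow_add, Nat.add_sub_cancel' hi, h.ap]
    have eb : (b ^ j)⁻¹ = b ^ (p - j) := by
      rw [inv_eq_iff_mul_eq_one, ← pow_add, Nat.add_sub_cancel' hj, h.bp]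
    rw [mul_inv_rev, ea, eb, h.ba2]
  have h2 := hQi _ h0
  rw [h1] at h2
  refine (form hQc h fun ⟨h2, h3⟩ => hij ⟨?_, ?_⟩).1 h2
  · exact (Nat.dvd_sub_iff_right hi (dvd_refl p)).1 h2
  · exact (Nat.dvd_sub_iff_right hj (dvd_refl p)).1 h3

include hQc hQi in
/-- **Sylow subgroup extraspecial of order `p ^ 3`** -/
theorem heis_reps [Finite K] (hp2 : p ≠ 2) (hc : ¬ p ^ 4 ∣ Nat.card K)
    (hw : ∀ k, 1 ≤ k → 2 * k < p → ¬ Q (w ^ k))
    (hb : ∀ j, 1 ≤ j → 2 * j < p → ¬ Q (b ^ j))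
    (hab : ∀ i j, 1 ≤ i → 2 * i < p → j < p → ¬ Q (a ^ i * b ^ j))
    {x : K} {n : ℕ} (hx : orderOf x = p ^ n) (hx1 : x ≠ 1) : ¬ Q x := by
  intro hP
  have hpo : ∀ k, 2 * k ≠ p := fun k hk => by
    rcases hp.out.eq_two_or_odd with h2 | h2
    · exact hp2 h2
    · omega
  have hi : ¬ p ∣ (Heis.gp h).index := by
    intro h1
    apply hc
    rw [← (Heis.gp h).card_mul_index, Heis.card h, pow_succ]
    exact mul_dvd_mul_left _ h1
  obtain ⟨g, hg⟩ := exists_conj_mem (Heis.isPGroup h) hi hx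
  have hP' := hQc g _ hP
  have ho : g * x * g⁻¹ ≠ 1 := by
    intro h1
    apply hx1
    calc x = g⁻¹ * (g * x * g⁻¹) * g := by group
      _ = 1 := by rw [h1]; group
  obtain ⟨i, j, k, he⟩ := hg
  rw [Heis.pow_red h.ap, Heis.pow_red h.bp, Heis.pow_red h.wp] at he
  have hpos := hp.out.pos
  have hi' := Nat.mod_lt i hpos
  have hj' := Nat.mod_lt j hpos
  have hk' := Nat.mod_lt k hpos
  generalize i % p = i at he hi'
  generalize j % p = j at he hj'
  generalize k % p = k at he hk'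
  rw [he] at hP' ho
  have key : ∀ j, 1 ≤ j → j < p → ¬ Q (b ^ j) := by
    intro j h1 h2 h3
    rcases lt_or_ge (2 * j) p with h4 | h4
    · exact hb j h1 h4 h3
    · have h5 : (b ^ j)⁻¹ = b ^ (p - j) := by
        rw [inv_eq_iff_mul_eq_one, ← pow_add, Nat.add_sub_cancel' h2.le, h.bp]
      have h6 := hQi _ h3
      rw [h5] at h6
      have := hpo j
      exact hb (p - j) (by omega) (by omega) h6
  by_cases hi0 : i = 0
  · subst hi0
    rw [pow_zero, one_mul] at hP' ho
    by_cases hj0 : j = 0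
    · subst hj0
      rw [pow_zero, one_mul] at hP' ho
      have hk0 : k ≠ 0 := by
        rintro rfl
        rw [pow_zero] at ho
        exact ho rfl
      rcases lt_or_ge (2 * k) p with h4 | h4
      · exact hw k (by omega) h4 hP'
      · have h5 : (w ^ k)⁻¹ = w ^ (p - k) := by
          rw [inv_eq_iff_mul_eq_one, ← pow_add, Nat.add_sub_cancel' hk'.le, h.wp]
        have h6 := hQi _ hP'
        rw [h5] at h6
        have := hpo k
        exact hw (p - k) (by omega) (by omega) h6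
    · have h1 : Q (a ^ 0 * b ^ j * w ^ k) := by rw [pow_zero, one_mul]; exact hP'
      rw [form hQc h (fun ⟨_, h2⟩ => hj0 (Nat.eq_zero_of_dvd_of_lt h2 hj')), pow_zero, one_mul] at h1
      exact key j (by omega) hj' h1
  · have hin : ¬ (p ∣ i ∧ p ∣ j) := fun ⟨h2, _⟩ => hi0 (Nat.eq_zero_of_dvd_of_lt h2 hi')
    rw [form hQc h hin] at hP'
    rcases lt_or_ge (2 * i) p with h4 | h4
    · exact hab i j (by omega) h4 hj' hP'
    · have := hpo i
      have hP'' := inv_form hQc hQi h i j hi'.le hj'.le hin hP'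
      by_cases hj0 : j = 0
      · subst hj0
        rw [Nat.sub_zero, h.bp] at hP''
        have h5 := hab (p - i) 0 (by omega) (by omega) hpos
        rw [pow_zero] at h5
        exact h5 hP''
      · exact hab (p - i) (p - j) (by omega) (by omega) (by omega) hP''

end Heis

include hQc hQi

/-- **Sylow subgroup elementary abelian of order `p ^ 2`** -/
theorem abel_reps [Finite K] [hp : Fact p.Prime] {a b : K} (hba : b * a = a * b) (ha : a ^ p = 1) (hb : b ^ p = 1)
    (ha1 : a ≠ 1) (hne : b ∉ zpowers a) (hp2 : p ≠ 2) (hc : ¬ p ^ 3 ∣ Nat.card K)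
    (hbj : ∀ j, 1 ≤ j → 2 * j < p → ¬ Q (b ^ j))
    (hab : ∀ i j, 1 ≤ i → 2 * i < p → j < p → ¬ Q (a ^ i * b ^ j))
    {x : K} {n : ℕ} (hx : orderOf x = p ^ n) (hx1 : x ≠ 1) : ¬ Q x := by
  intro hP
  have cab : Commute a b := hba.symm
  have hpos := hp.out.pos
  have hpo : ∀ k, 2 * k ≠ p := fun k hk => by
    rcases hp.out.eq_two_or_odd with h2 | h2
    · exact hp2 h2
    · omega
  let R : Subgroup K :=
    { carrier := {g | ∃ i j : ℕ, g = a ^ i * b ^ j}
      one_mem' := ⟨0, 0, by simp⟩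
      mul_mem' := by
        rintro _ _ ⟨i, j, rfl⟩ ⟨i', j', rfl⟩
        refine ⟨i + i', j + j', ?_⟩
        have c : Commute (b ^ j) (a ^ i') := cab.symm.pow_pow _ _
        calc a ^ i * b ^ j * (a ^ i' * b ^ j') = a ^ i * (b ^ j * a ^ i') * b ^ j' := by group
          _ = a ^ i * a ^ i' * (b ^ j * b ^ j') := by rw [c.eq]; group
          _ = _ := by rw [← pow_add, ← pow_add]
      inv_mem' := by
        rintro _ ⟨i, j, rfl⟩
        obtain ⟨q, hq⟩ : ∃ q, p = q + 1 := ⟨p - 1, by omega⟩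
        refine ⟨q * i, q * j, ?_⟩
        rw [inv_eq_iff_mul_eq_one]
        have c : Commute (b ^ j) (a ^ (q * i)) := cab.symm.pow_pow _ _
        calc a ^ i * b ^ j * (a ^ (q * i) * b ^ (q * j)) = a ^ i * (b ^ j * a ^ (q * i)) * b ^ (q * j) := by group
          _ = a ^ i * a ^ (q * i) * (b ^ j * b ^ (q * j)) := by rw [c.eq]; group
          _ = 1 := by
            rw [← pow_add, ← pow_add, Heis.pow_eq_one_of ha ⟨i, by rw [hq]; ring⟩,
              Heis.pow_eq_one_of hb ⟨j, by rw [hq]; ring⟩, one_mul] }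
  have hR : IsPGroup p R := by
    rintro ⟨g, i, j, rfl⟩
    refine ⟨1, Subtype.ext ?_⟩
    change (a ^ i * b ^ j) ^ p ^ 1 = 1
    rw [pow_one, (cab.pow_pow i j).mul_pow, ← pow_mul, ← pow_mul, Heis.pow_eq_one_of ha ⟨i, by ring⟩,
      Heis.pow_eq_one_of hb ⟨j, by ring⟩, one_mul]
  have haQ : a ∈ R := ⟨1, 0, by simp⟩
  have hbQ : b ∈ R := ⟨0, 1, by simp⟩
  have hi : ¬ p ∣ R.index := by
    intro h1
    apply hc
    obtain ⟨n, hn⟩ := IsPGroup.iff_card.1 hR
    have hn2 : 2 ≤ n := by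
      by_contra h3
      have hoa : orderOf a = p := orderOf_eq_prime ha ha1
      have h4 : zpowers a = R := by
        refine Subgroup.eq_of_le_of_card_ge (by rwa [zpowers_le]) ?_
        rw [Nat.card_zpowers, hoa, hn]
        calc p ^ n ≤ p ^ 1 := Nat.pow_le_pow_right hpos (by omega)
          _ = p := pow_one p
      exact hne (h4 ▸ hbQ)
    rw [← R.card_mul_index, hn]
    calc p ^ 3 = p ^ 2 * p := by ring
      _ ∣ p ^ n * R.index := mul_dvd_mul (pow_dvd_pow p hn2) h1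
  obtain ⟨g, hg⟩ := exists_conj_mem hR hi hx
  have hP' := hQc g _ hP
  have ho : g * x * g⁻¹ ≠ 1 := by
    intro h1
    apply hx1
    calc x = g⁻¹ * (g * x * g⁻¹) * g := by group
      _ = 1 := by rw [h1]; group
  obtain ⟨i, j, he⟩ := hg
  rw [Heis.pow_red ha, Heis.pow_red hb] at he
  have hi' := Nat.mod_lt i hpos
  have hj' := Nat.mod_lt j hpos
  generalize i % p = i at he hi'
  generalize j % p = j at he hj'
  rw [he] at hP' ho
  by_cases hi0 : i = 0
  · subst hi0
    rw [pow_zero, one_mul] at hP' ho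
    have hj0 : j ≠ 0 := by
      rintro rfl
      rw [pow_zero] at ho
      exact ho rfl
    rcases lt_or_ge (2 * j) p with h4 | h4
    · exact hbj j (by omega) h4 hP'
    · have h5 : (b ^ j)⁻¹ = b ^ (p - j) := by
        rw [inv_eq_iff_mul_eq_one, ← pow_add, Nat.add_sub_cancel' hj'.le, hb]
      have h6 := hQi _ hP'
      rw [h5] at h6
      have := hpo j
      exact hbj (p - j) (by omega) (by omega) h6
  · rcases lt_or_ge (2 * i) p with h4 | h4
    · exact hab i j (by omega) h4 hj' hP'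
    · have := hpo i
      have h5 : (a ^ i * b ^ j)⁻¹ = a ^ (p - i) * b ^ (p - j) := by
        rw [inv_eq_iff_mul_eq_one]
        have c : Commute (b ^ j) (a ^ (p - i)) := cab.symm.pow_pow _ _
        calc a ^ i * b ^ j * (a ^ (p - i) * b ^ (p - j)) = a ^ i * (b ^ j * a ^ (p - i)) * b ^ (p - j) := by group
          _ = a ^ i * a ^ (p - i) * (b ^ j * b ^ (p - j)) := by rw [c.eq]; group
          _ = 1 := by
            rw [← pow_add, ← pow_add, Nat.add_sub_cancel' hi'.le, Nat.add_sub_cancel' hj'.le, ha, hb, one_mul]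
      have h6 := hQi _ hP'
      rw [h5] at h6
      by_cases hj0 : j = 0
      · subst hj0
        rw [Nat.sub_zero, hb] at h6
        have h7 := hab (p - i) 0 (by omega) (by omega) hpos
        rw [pow_zero] at h7
        exact h7 h6
      · exact hab (p - i) (p - j) (by omega) (by omega) (by omega) h6

/-- **Sylow subgroup of order `p`** -/
theorem cyc_reps [Finite K] [hp : Fact p.Prime] {a : K} (ha : a ^ p = 1) (ha1 : a ≠ 1) (hp2 : p ≠ 2)
    (hc : ¬ p ^ 2 ∣ Nat.card K) (hj : ∀ j, 1 ≤ j → 2 * j < p → ¬ Q (a ^ j))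
    {x : K} {n : ℕ} (hx : orderOf x = p ^ n) (hx1 : x ≠ 1) : ¬ Q x := by
  intro hP
  have hpos := hp.out.pos
  have hpo : ∀ k, 2 * k ≠ p := fun k hk => by
    rcases hp.out.eq_two_or_odd with h2 | h2
    · exact hp2 h2
    · omega
  have hoa : orderOf a = p := orderOf_eq_prime ha ha1
  have hR : IsPGroup p (zpowers a) := IsPGroup.of_card (n := 1) (by rw [Nat.card_zpowers, hoa, pow_one])
  have hi : ¬ p ∣ (zpowers a).index := by
    intro h1
    apply hc
    rw [← (zpowers a).card_mul_index, Nat.card_zpowers, hoa, pow_two]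
    exact mul_dvd_mul_left _ h1
  obtain ⟨g, hg⟩ := exists_conj_mem hR hi hx
  have hP' := hQc g _ hP
  have ho : g * x * g⁻¹ ≠ 1 := by
    intro h1
    apply hx1
    calc x = g⁻¹ * (g * x * g⁻¹) * g := by group
      _ = 1 := by rw [h1]; group
  rw [← mem_powers_iff_mem_zpowers] at hg
  obtain ⟨i, he⟩ := hg
  have he : a ^ i = g * x * g⁻¹ := he
  rw [Heis.pow_red ha] at he
  have hi' := Nat.mod_lt i hpos
  generalize i % p = i at he hi'
  rw [← he] at hP' ho
  have hj0 : i ≠ 0 := by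
    rintro rfl
    rw [pow_zero] at ho
    exact ho rfl
  rcases lt_or_ge (2 * i) p with h4 | h4
  · exact hj i (by omega) h4 hP'
  · have h5 : (a ^ i)⁻¹ = a ^ (p - i) := by
      rw [inv_eq_iff_mul_eq_one, ← pow_add, Nat.add_sub_cancel' hi'.le, ha]
    have h6 := hQi _ hP'
    rw [h5] at h6
    have := hpo i
    exact hj (p - i) (by omega) (by omega) h6

end Cfsg.Agent.H659.GenReps
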